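import Cfsg.Agent.H40.R2.Perm
import Cfsg.Agent.H684.OQ.CellCard
import Cfsg.Agent.H967.Sph.Oper
import Cfsg.Agent.H307.RgdNoCop

/-!
# S4933, own characteristic: the index of a maximal parabolic subgroup (helper40)

* `not_dvd_index` : `p |X_i|` does not divide `|Y : P_{I ∖ i}| - 1`.
-/

set_option autoImplicit false
set_option linter.unusedSectionVars false

namespace Cfsg.Agent.H40.HT

open Cfsg Subgroup
open CoxeterSystem Cfsg.Agent.ChevalleyStructure.CoxeterGeom Cfsg.Agent.Tits.Roots Cfsg.Agent.Tits.Core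
  Cfsg.Agent.Tits.Exchange Cfsg.Agent.Nodes.Reps Cfsg.Agent.Nodes.BNOf Cfsg.Agent.Nodes.StabComb
  Cfsg.Agent.Nodes.Bruhat Cfsg.Agent.Nodes.OppDec Cfsg.Agent.Nodes.LeviDec Cfsg.Agent.H967.Sph

variable {I : Type*} [Fintype I] [DecidableEq I] {M : CoxeterMatrix I} {W : Type*} [Group W] [Finite W]
  {cs : CoxeterSystem M W} {A : I → I → ℤ} {h : IsCartan M A} {p : ℕ} {Y : Type*} [Group Y] [Finite Y] {T : Subgroup Y}
  {n : I → Y} {X : (I → ℤ) → Subgroup Y} (R : RGD cs h p T n X)

include R

/-- the order of a cell -/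
theorem card_cell_word (ω : List I) (hω : cs.IsReduced ω) :
    Nat.card {g : Y // Cell R.nsys cs h X (cs.wordProd ω) g} =
      (ω.map fun i => Nat.card (X (sr i))).prod * Nat.card (RGD.B cs h T X) := by
  induction ω with
  | nil => rw [cs.wordProd_nil, H684.OQ.card_cell_one R, List.map_nil, List.prod_nil, one_mul]
  | cons i ω ih =>
    have h2 : cs.IsReduced ω := by simpa using hω.drop 1
    have h3 : cs.length (cs.wordProd ω) < cs.length (cs.simple i * cs.wordProd ω) := by
      rw [← cs.wordProd_cons, hω.eq, h2.eq, List.length_cons]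
      omega
    rw [cs.wordProd_cons, H684.OQ.card_cell_mul R h3, ih h2, List.map_cons, List.prod_cons, mul_assoc]

theorem dvd_cell {i : I} {w : W} (hw : w ∉ WJ cs {i}ᶜ) (hwi : w ≠ cs.simple i)
    (hpX : ∀ j : I, p ∣ Nat.card (X (sr j))) :
    p * Nat.card (X (sr i)) * Nat.card (RGD.B cs h T X) ∣ Nat.card {g : Y // Cell R.nsys cs h X w g} := by
  classical
  obtain ⟨ω, h1, rfl⟩ := cs.exists_isReduced w
  rw [card_cell_word R ω h1]
  refine Nat.mul_dvd_mul_right ?_ _
  have hi : i ∈ ω := by
    by_contra hc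
    apply hw
    clear hw hwi h1
    induction ω with
    | nil =>
      rw [cs.wordProd_nil]
      exact one_mem _
    | cons j ω ih =>
      rw [cs.wordProd_cons]
      refine mul_mem (Subgroup.subset_closure ?_) (ih fun h => hc (List.mem_cons_of_mem _ h))
      exact ⟨j, fun h => hc (by rw [Set.mem_singleton_iff] at h; rw [h]; exact List.mem_cons_self), rfl⟩
  rw [← List.prod_map_erase (fun i => Nat.card (X (sr i))) hi, mul_comm p]
  refine Nat.mul_dvd_mul_left _ ?_
  have hne : ω.erase i ≠ [] := by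
    intro h2
    have h3 := List.length_erase_of_mem hi
    rw [h2, List.length_nil] at h3
    have h4 : ω.length = 1 := by
      have := List.length_pos_of_mem hi
      omega
    obtain ⟨j, rfl⟩ := List.length_eq_one_iff.1 h4
    rw [List.mem_singleton] at hi
    subst hi
    apply hwi
    simp
  obtain ⟨j, hj⟩ := List.exists_mem_of_ne_nil _ hne
  exact (hpX j).trans (List.dvd_prod (List.mem_map.2 ⟨j, hj, rfl⟩))

/-- **the index of a maximal parabolic subgroup** -/
theorem not_dvd_index (hp : p.Prime) (hG : GG cs h T X = ⊤) (hpX : ∀ j : I, p ∣ Nat.card (X (sr j))) (i : I) :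
    ¬ p * Nat.card (X (sr i)) ∣ (PJ cs h T X {i}ᶜ).index - 1 := by
  classical
  intro hdvd
  have := Fintype.ofFinite Y
  have := Fintype.ofFinite W
  obtain ⟨P, hP⟩ : ∃ P : Subgroup Y, P = PJ cs h T X {i}ᶜ := ⟨_, rfl⟩
  rw [← hP] at hdvd
  have hBP : RGD.B cs h T X ≤ P := by
    rw [hP]
    intro b hb
    exact B_le_PJ hb
  have hmem : ∀ g : Y, g ∈ P ↔ wOf R hG g ∈ WJ cs {i}ᶜ := fun g => by
    rw [hP]
    exact cell_mem_PJ_iff R (cell_wOf R hG g)
  have hcell : ∀ w g, Cell R.nsys cs h X w g ↔ wOf R hG g = w := fun w g =>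
    ⟨fun hg => Cell.unique R (cell_wOf R hG g) hg, fun h => by rw [← h]; exact cell_wOf R hG g⟩
  have hsi : cs.simple i ∉ WJ cs {i}ᶜ := by
    have := H307.RgdNoCop.simple_not_mem (cs := cs) h i
    exact this
  obtain ⟨b, hb⟩ : ∃ b, b = Nat.card (RGD.B cs h T X) := ⟨_, rfl⟩
  obtain ⟨x, hx⟩ : ∃ x, x = Nat.card (X (sr i)) := ⟨_, rfl⟩
  have hcw : ∀ w : W, Nat.card {g : Y // Cell R.nsys cs h X w g} = (Finset.univ.filter fun g => wOf R hG g = w).card := by
    intro w
    rw [Nat.card_eq_fintype_card, Fintype.card_subtype]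
    congr 1
    ext g
    simp only [Finset.mem_filter, Finset.mem_univ, true_and]
    exact hcell w g
  have h1 : (Finset.univ.filter fun g : Y => g ∉ P).card =
      ∑ w ∈ Finset.univ.filter (fun w : W => w ∉ WJ cs {i}ᶜ), (Finset.univ.filter fun g => wOf R hG g = w).card := by
    rw [Finset.card_eq_sum_card_fiberwise (f := wOf R hG) (t := Finset.univ.filter (fun w : W => w ∉ WJ cs {i}ᶜ))]
    · refine Finset.sum_congr rfl fun w hw => ?_
      congr 1
      ext g
      simp only [Finset.mem_filter, Finset.mem_univ, true_and]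
      constructor
      · exact fun h => h.2
      · intro h
        refine ⟨?_, h⟩
        rw [hmem, h]
        exact (Finset.mem_filter.1 hw).2
    · intro g hg
      rw [Finset.mem_coe, Finset.mem_filter] at hg ⊢
      exact ⟨Finset.mem_univ _, fun h => hg.2 ((hmem g).2 h)⟩
  have h2 : (Finset.univ.filter fun g : Y => g ∉ P).card = (P.index - 1) * Nat.card P := by
    have h3 : (Finset.univ.filter fun g : Y => g ∈ P).card = Nat.card P := by
      rw [Nat.card_eq_fintype_card, Fintype.card_subtype]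
    have h4 := Finset.card_filter_add_card_filter_not (s := (Finset.univ : Finset Y)) (fun g : Y => g ∈ P)
    have h5 : P.index * Nat.card P = Nat.card Y := Subgroup.index_mul_card P
    rw [h3, Finset.card_univ, ← Nat.card_eq_fintype_card, ← h5] at h4
    have h6 : 0 < P.index := Nat.pos_of_ne_zero Subgroup.index_ne_zero_of_finite
    obtain ⟨k, hk⟩ : ∃ k, P.index = k + 1 := ⟨P.index - 1, by omega⟩
    rw [hk] at h4 ⊢
    rw [Nat.add_sub_cancel]
    rw [add_mul, one_mul] at h4
    omega
  have hsimem : cs.simple i ∈ Finset.univ.filter (fun w : W => w ∉ WJ cs {i}ᶜ) :=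
    Finset.mem_filter.2 ⟨Finset.mem_univ _, hsi⟩
  rw [h2, ← Finset.add_sum_erase _ _ hsimem, ← hcw] at h1
  have h3 : Nat.card {g : Y // Cell R.nsys cs h X (cs.simple i) g} = x * b := by
    have h4 := card_cell_word R [i] (by simp [CoxeterSystem.IsReduced])
    rw [cs.wordProd_singleton] at h4
    rw [h4, List.map_singleton, List.prod_singleton, hx, hb]
  have h4 : p * x * b ∣ ∑ w ∈ (Finset.univ.filter (fun w : W => w ∉ WJ cs {i}ᶜ)).erase (cs.simple i),
      (Finset.univ.filter fun g => wOf R hG g = w).card := by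
    refine Finset.dvd_sum fun w hw => ?_
    rw [← hcw, hx, hb]
    exact dvd_cell R (Finset.mem_filter.1 (Finset.mem_of_mem_erase hw)).2 (Finset.ne_of_mem_erase hw) hpX
  rw [h3] at h1
  have h5 : b ∣ Nat.card P := by
    rw [hb]
    exact Subgroup.card_dvd_of_le hBP
  have h6 : p * x * b ∣ (P.index - 1) * Nat.card P := by
    rw [hx]
    exact mul_dvd_mul hdvd h5
  rw [h1] at h6
  have h7 : p * x * b ∣ x * b := (Nat.dvd_add_left h4).1 h6
  have hxb : 0 < x * b := by
    rw [hx, hb]
    exact Nat.mul_pos Nat.card_pos Nat.card_pos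
  have h8 := Nat.le_of_dvd hxb h7
  have h9 := hp.two_le
  rw [mul_assoc] at h8
  nlinarith

end Cfsg.Agent.H40.HT
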